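import Mathlib
import Cfsg.Prelude.Def_OddOrderLocal
import Cfsg.Agent.S0003

set_option autoImplicit false

namespace Cfsg.Agent.Lib.Helper7.Meta

open Subgroup
open scoped commutatorElement

/-- Normal form data of a metacyclic group: `⟨a⟩` normal, `b a b⁻¹ = a ^ r`, `G = ⟨b⟩⟨a⟩`. -/
structure Data (p : ℕ) {G : Type*} [Group G] (a b : G) (α r : ℕ) : Prop where
  ha : orderOf a = p ^ α
  hr : b * a * b⁻¹ = a ^ r
  hr2 : 2 ≤ r
  hgen : ∀ g : G, ∃ j i : ℕ, g = b ^ j * a ^ i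

theorem nat_pow_of_zpow {G : Type*} [Group G] [Finite G] (a : G) (k : ℤ) :
    ∃ i : ℕ, a ^ i = a ^ k := by
  refine ⟨(k % (orderOf a : ℤ)).toNat, ?_⟩
  have hpos : (orderOf a : ℤ) ≠ 0 := by
    have := orderOf_pos a
    exact_mod_cast this.ne'
  rw [← zpow_natCast, Int.toNat_of_nonneg (Int.emod_nonneg _ hpos), zpow_mod_orderOf]

theorem exists_data {G : Type*} [Group G] [Finite G] {p : ℕ} [hp : Fact p.Prime] (hG : IsPGroup p G)
    (hmc : Cfsg.IsMetacyclic G) : ∃ (a b : G) (α r : ℕ), Data p a b α r := by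
  obtain ⟨N, hNn, hNc, hQc⟩ := hmc
  haveI := hNn
  obtain ⟨a', ha'⟩ := hNc.exists_generator
  obtain ⟨q, hq⟩ := hQc.exists_generator
  obtain ⟨b, rfl⟩ := QuotientGroup.mk_surjective q
  obtain ⟨k, hk⟩ := hG (a' : G)
  obtain ⟨α, _, hα⟩ := (Nat.dvd_prime_pow hp.out).mp (orderOf_dvd_of_pow_eq_one hk)
  have hNpow : ∀ x ∈ N, ∃ i : ℕ, x = (a' : G) ^ i := by
    intro x hx
    have h1 := ha' ⟨x, hx⟩
    obtain ⟨k, hk⟩ := mem_zpowers_iff.mp h1
    have h2 : (a' : G) ^ k = x := by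
      have h3 := congrArg Subtype.val hk
      simpa using h3
    obtain ⟨i, hi⟩ := nat_pow_of_zpow (a' : G) k
    exact ⟨i, by rw [hi, h2]⟩
  have hbaN : b * (a' : G) * b⁻¹ ∈ N := hNn.conj_mem _ a'.2 b
  obtain ⟨r₀, hr₀⟩ := hNpow _ hbaN
  have hgen : ∀ g : G, ∃ j i : ℕ, g = b ^ j * (a' : G) ^ i := by
    intro g
    obtain ⟨k, hk⟩ := mem_zpowers_iff.mp (hq (QuotientGroup.mk g))
    obtain ⟨j, hj⟩ := nat_pow_of_zpow b k
    have h1 : (b ^ j)⁻¹ * g ∈ N := by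
      rw [← QuotientGroup.eq, hj, QuotientGroup.mk_zpow]
      exact hk
    obtain ⟨i, hi⟩ := hNpow _ h1
    exact ⟨j, i, by rw [← hi]; group⟩
  refine ⟨(a' : G), b, α, r₀ + 2 * p ^ α, ⟨hα, ?_, ?_, hgen⟩⟩
  · rw [hr₀, pow_add, mul_comm 2, pow_mul, ← hα, pow_orderOf_eq_one, one_pow, mul_one]
  · have : 0 < p ^ α := pos_of_ne_zero (pow_ne_zero _ hp.out.ne_zero)
    omega

section
variable {p : ℕ} {G : Type*} [Group G] {a b : G} {α r : ℕ}

theorem Data.conj (D : Data p a b α r) (j : ℕ) : b ^ j * a * (b ^ j)⁻¹ = a ^ (r ^ j) := by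
  induction j with
  | zero => simp
  | succ j ih =>
    have h1 : b ^ (j + 1) * a * (b ^ (j + 1))⁻¹ = b * (b ^ j * a * (b ^ j)⁻¹) * b⁻¹ := by
      rw [pow_succ']; group
    rw [h1, ih, ← conj_pow, D.hr, ← pow_mul, pow_succ']

theorem Data.conj_pow' (D : Data p a b α r) (j i : ℕ) :
    b ^ j * a ^ i * (b ^ j)⁻¹ = a ^ (i * r ^ j) := by
  rw [← conj_pow, D.conj j, ← pow_mul, mul_comm]

theorem Data.pow_eq_one_iff (D : Data p a b α r) (x : ℕ) : a ^ x = 1 ↔ p ^ α ∣ x := by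
  rw [← D.ha, orderOf_dvd_iff_pow_eq_one]

theorem Data.pow_eq_pow_iff (D : Data p a b α r) (x y : ℕ) :
    a ^ x = a ^ y ↔ x ≡ y [MOD p ^ α] := by
  rw [← D.ha]; exact pow_eq_pow_iff_modEq

theorem Data.one_le_pow (D : Data p a b α r) (j : ℕ) : 1 ≤ r ^ j :=
  Nat.one_le_pow _ _ (by have := D.hr2; omega)

/-- `b ^ j` commutes with `a` iff `p ^ α ∣ r ^ j - 1`. -/
theorem Data.comm_iff (D : Data p a b α r) (j : ℕ) :
    b ^ j * a = a * b ^ j ↔ p ^ α ∣ r ^ j - 1 := by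
  have h1 : b ^ j * a = a * b ^ j ↔ b ^ j * a * (b ^ j)⁻¹ = a := by
    constructor
    · intro h; rw [h]; group
    · intro h
      calc b ^ j * a = (b ^ j * a * (b ^ j)⁻¹) * b ^ j := by group
        _ = a * b ^ j := by rw [h]
  have h2 : a ^ (r ^ j) = a ↔ a ^ (r ^ j) = a ^ 1 := by rw [pow_one]
  rw [h1, D.conj j, h2, D.pow_eq_pow_iff, Nat.ModEq.comm, Nat.modEq_iff_dvd' (D.one_le_pow j)]

theorem Data.p_dvd [hp : Fact p.Prime] (D : Data p a b α r) (hG : IsPGroup p G) (hα : 1 ≤ α) :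
    p ∣ r - 1 := by
  obtain ⟨k, hk⟩ := hG b
  have h1 : b ^ (p ^ k) * a = a * b ^ (p ^ k) := by rw [hk, one_mul, mul_one]
  have h2 := (D.comm_iff (p ^ k)).mp h1
  have h3 : p ∣ r ^ p ^ k - 1 := dvd_trans (dvd_pow_self p (by omega)) h2
  have h4 : ((r ^ p ^ k - 1 : ℕ) : ZMod p) = 0 := (ZMod.natCast_eq_zero_iff _ _).mpr h3
  rw [Nat.cast_sub (D.one_le_pow _), Nat.cast_pow, Nat.cast_one, ZMod.pow_card_pow, sub_eq_zero] at h4
  apply (ZMod.natCast_eq_zero_iff _ _).mp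
  rw [Nat.cast_sub (by have := D.hr2; omega), h4, Nat.cast_one, sub_self]

/-- LTE: `v_p (r ^ j - 1) = v_p (r - 1) + v_p j` for odd `p`. -/
theorem Data.val [hp : Fact p.Prime] (D : Data p a b α r) (hodd : p ≠ 2) (hpr : p ∣ r - 1) (j : ℕ)
    (hj : j ≠ 0) : padicValNat p (r ^ j - 1) = padicValNat p (r - 1) + padicValNat p j := by
  have hodd' : Odd p := hp.out.odd_of_ne_two hodd
  have hr2 := D.hr2
  have hnd : ¬ p ∣ r := by
    intro h
    have h1 : p ∣ r - (r - 1) := Nat.dvd_sub h hpr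
    have h2 : r - (r - 1) = 1 := by omega
    rw [h2] at h1
    exact hp.out.one_lt.ne' (Nat.dvd_one.mp h1)
  have := padicValNat.pow_sub_pow (p := p) hodd' (x := r) (y := 1) (by omega) hpr hnd hj
  simpa using this

theorem Data.normal (D : Data p a b α r) : (zpowers a).Normal := by
  constructor
  intro x hx g
  obtain ⟨t, rfl⟩ := mem_zpowers_iff.mp hx
  obtain ⟨j, i, rfl⟩ := D.hgen g
  have h1 : b ^ j * a ^ i * a ^ t * (b ^ j * a ^ i)⁻¹ = (b ^ j * a * (b ^ j)⁻¹) ^ t := by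
    rw [conj_zpow]
    have h2 : a ^ i * a ^ t * (a ^ i)⁻¹ = a ^ t := by
      have hc : Commute (a ^ i) (a ^ t) := ((Commute.refl a).pow_left i).zpow_right t
      rw [hc.eq]; group
    calc b ^ j * a ^ i * a ^ t * (b ^ j * a ^ i)⁻¹
        = b ^ j * (a ^ i * a ^ t * (a ^ i)⁻¹) * (b ^ j)⁻¹ := by group
      _ = b ^ j * a ^ t * (b ^ j)⁻¹ := by rw [h2]
  rw [h1, D.conj j]
  exact zpow_mem (pow_mem (mem_zpowers a) _) t

/-- `a ^ (r - 1) = [b, a]`. -/
theorem Data.d_eq (D : Data p a b α r) : a ^ (r - 1) = b * a * b⁻¹ * a⁻¹ := by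
  rw [D.hr, eq_mul_inv_iff_mul_eq, pow_sub_one_mul (by have := D.hr2; omega)]

theorem Data.conj_d (D : Data p a b α r) (j : ℕ) :
    b ^ j * a ^ (r - 1) * (b ^ j)⁻¹ = (a ^ (r - 1)) ^ (r ^ j) := by
  rw [D.conj_pow', ← pow_mul]

theorem Data.d_normal (D : Data p a b α r) : (zpowers (a ^ (r - 1))).Normal := by
  constructor
  intro x hx g
  obtain ⟨t, rfl⟩ := mem_zpowers_iff.mp hx
  obtain ⟨j, i, rfl⟩ := D.hgen g
  have h2 : a ^ i * (a ^ (r - 1)) ^ t * (a ^ i)⁻¹ = (a ^ (r - 1)) ^ t := by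
    have hc : Commute (a ^ i) ((a ^ (r - 1)) ^ t) :=
      (((Commute.refl a).pow_right (r - 1)).pow_left i).zpow_right t
    rw [hc.eq]; group
  have h1 : b ^ j * a ^ i * (a ^ (r - 1)) ^ t * (b ^ j * a ^ i)⁻¹
      = (b ^ j * a ^ (r - 1) * (b ^ j)⁻¹) ^ t := by
    rw [conj_zpow]
    calc b ^ j * a ^ i * (a ^ (r - 1)) ^ t * (b ^ j * a ^ i)⁻¹
        = b ^ j * (a ^ i * (a ^ (r - 1)) ^ t * (a ^ i)⁻¹) * (b ^ j)⁻¹ := by group
      _ = b ^ j * (a ^ (r - 1)) ^ t * (b ^ j)⁻¹ := by rw [h2]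
  rw [h1, D.conj_d j]
  exact zpow_mem (pow_mem (mem_zpowers _) _) t

theorem Data.commutator_eq (D : Data p a b α r) : commutator G = zpowers (a ^ (r - 1)) := by
  apply le_antisymm
  · haveI := D.d_normal
    rw [_root_.commutator_def, Subgroup.commutator_le]
    intro g _ h _
    rw [← QuotientGroup.eq_one_iff (N := zpowers (a ^ (r - 1)))]
    have hc : Commute (QuotientGroup.mk b : G ⧸ zpowers (a ^ (r - 1))) (QuotientGroup.mk a) := by
      have h1 : (QuotientGroup.mk (b * a * b⁻¹ * a⁻¹) : G ⧸ zpowers (a ^ (r - 1))) = 1 := by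
        rw [QuotientGroup.eq_one_iff, ← D.d_eq]; exact mem_zpowers _
      rw [QuotientGroup.mk_mul, QuotientGroup.mk_mul, QuotientGroup.mk_mul, QuotientGroup.mk_inv,
        QuotientGroup.mk_inv, mul_inv_eq_one, mul_inv_eq_iff_eq_mul] at h1
      exact h1
    obtain ⟨j, i, rfl⟩ := D.hgen g
    obtain ⟨l, k, rfl⟩ := D.hgen h
    have hcomm : Commute (QuotientGroup.mk (b ^ j * a ^ i) : G ⧸ zpowers (a ^ (r - 1)))
        (QuotientGroup.mk (b ^ l * a ^ k)) := by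
      rw [QuotientGroup.mk_mul, QuotientGroup.mk_mul, QuotientGroup.mk_pow, QuotientGroup.mk_pow,
        QuotientGroup.mk_pow, QuotientGroup.mk_pow]
      apply Commute.mul_left
      · apply Commute.mul_right
        · exact (Commute.refl _).pow_pow j l
        · exact hc.pow_pow j k
      · apply Commute.mul_right
        · exact (hc.symm).pow_pow i l
        · exact (Commute.refl _).pow_pow i k
    have h3 : (QuotientGroup.mk ⁅b ^ j * a ^ i, b ^ l * a ^ k⁆ : G ⧸ zpowers (a ^ (r - 1)))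
        = ⁅(QuotientGroup.mk (b ^ j * a ^ i) : G ⧸ zpowers (a ^ (r - 1))),
          QuotientGroup.mk (b ^ l * a ^ k)⁆ := by
      rw [commutatorElement_def, commutatorElement_def]; rfl
    rw [h3, commutatorElement_eq_one_iff_commute]
    exact hcomm
  · rw [zpowers_le, D.d_eq]
    have h8 := Subgroup.commutator_mem_commutator (Subgroup.mem_top b) (Subgroup.mem_top a)
    rw [commutatorElement_def] at h8
    rw [_root_.commutator_def]; exact h8

/-- Elements commuting with `a` and `b` are central. -/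
theorem Data.mem_center (D : Data p a b α r) (z : G) (h1 : a * z = z * a) (h2 : b * z = z * b) :
    z ∈ center G := by
  rw [mem_center_iff]
  intro g
  obtain ⟨j, i, rfl⟩ := D.hgen g
  have hca : Commute a z := h1
  have hcb : Commute b z := h2
  exact ((hcb.pow_left j).mul_left (hca.pow_left i)).eq

theorem Data.mem_centralizer (D : Data p a b α r) (g : G) :
    g ∈ centralizer ((zpowers a : Subgroup G) : Set G) ↔ g * a = a * g := by
  constructor
  · intro h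
    exact (mem_centralizer_iff.mp h a (mem_zpowers a)).symm
  · intro h
    rw [mem_centralizer_iff]
    intro x hx
    obtain ⟨t, rfl⟩ := mem_zpowers_iff.mp (show x ∈ zpowers a from hx)
    have hc : Commute g a := h
    exact (hc.zpow_right t).eq.symm

theorem Data.centralizer_eq (D : Data p a b α r) :
    centralizer ((zpowers a : Subgroup G) : Set G) = zpowers a ⊔ center G := by
  apply le_antisymm
  · intro g hg
    have hga := (D.mem_centralizer g).mp hg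
    obtain ⟨j, i, rfl⟩ := D.hgen g
    have hbj : b ^ j * a = a * b ^ j := by
      have h1 : b ^ j * a ^ i * a = a * (b ^ j * a ^ i) := hga
      have h2 : b ^ j * a * a ^ i = a * b ^ j * a ^ i := by
        calc b ^ j * a * a ^ i = b ^ j * a ^ i * a := by rw [mul_assoc, mul_assoc, ← pow_succ, ← pow_succ']
          _ = a * (b ^ j * a ^ i) := h1
          _ = a * b ^ j * a ^ i := by rw [mul_assoc]
      exact mul_right_cancel h2
    have hz : b ^ j ∈ center G := D.mem_center _ hbj.symm ((Commute.refl b).pow_right j).eq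
    exact Subgroup.mul_mem _ (le_sup_right (a := zpowers a) hz)
      (le_sup_left (b := center G) (pow_mem (mem_zpowers a) i))
  · apply sup_le
    · intro x hx
      obtain ⟨t, rfl⟩ := mem_zpowers_iff.mp hx
      exact (D.mem_centralizer _).mpr ((Commute.refl a).zpow_left t).eq
    · exact Subgroup.center_le_centralizer _

end

section key
variable {p : ℕ} {G : Type*} [Group G] {a b : G} {α r : ℕ}

theorem Data.pow_normal (D : Data p a b α r) (w : ℕ) : (zpowers (a ^ w)).Normal := by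
  constructor
  intro x hx g
  obtain ⟨t, rfl⟩ := mem_zpowers_iff.mp hx
  obtain ⟨j, i, rfl⟩ := D.hgen g
  have h2 : a ^ i * (a ^ w) ^ t * (a ^ i)⁻¹ = (a ^ w) ^ t := by
    have hc : Commute (a ^ i) ((a ^ w) ^ t) :=
      (((Commute.refl a).pow_right w).pow_left i).zpow_right t
    rw [hc.eq]; group
  have h1 : b ^ j * a ^ i * (a ^ w) ^ t * (b ^ j * a ^ i)⁻¹
      = (b ^ j * a ^ w * (b ^ j)⁻¹) ^ t := by
    rw [conj_zpow]
    calc b ^ j * a ^ i * (a ^ w) ^ t * (b ^ j * a ^ i)⁻¹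
        = b ^ j * (a ^ i * (a ^ w) ^ t * (a ^ i)⁻¹) * (b ^ j)⁻¹ := by group
      _ = b ^ j * (a ^ w) ^ t * (b ^ j)⁻¹ := by rw [h2]
  rw [h1, D.conj_pow' j w, pow_mul]
  exact zpow_mem (pow_mem (mem_zpowers _) _) t

theorem Data.d_pow (D : Data p a b α r) (x : ℕ) :
    (a ^ (r - 1)) ^ x = 1 ↔ p ^ α ∣ (r - 1) * x := by
  rw [← pow_mul, D.pow_eq_one_iff]

theorem Data.n_le [hp : Fact p.Prime] (D : Data p a b α r) (n : ℕ)
    (hn : orderOf (a ^ (r - 1)) = p ^ n) : n ≤ α := by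
  have h1 : orderOf (a ^ (r - 1)) ∣ orderOf a := orderOf_pow_dvd (r - 1)
  rw [hn, D.ha] at h1
  exact (Nat.pow_dvd_pow_iff_le_right hp.out.one_lt).mp h1

/-- If `|G'| = p ^ (m+1)` then `α = v_p (r - 1) + m + 1`. -/
theorem Data.alpha_eq [hp : Fact p.Prime] (D : Data p a b α r) (hG : IsPGroup p G) (m : ℕ)
    (hn : orderOf (a ^ (r - 1)) = p ^ (m + 1)) :
    p ∣ r - 1 ∧ α = padicValNat p (r - 1) + (m + 1) := by
  have hpp := hp.out
  have hr2 := D.hr2
  have hr1 : r - 1 ≠ 0 := by omega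
  have hnα := D.n_le (m + 1) hn
  have hpr := D.p_dvd hG (by omega)
  refine ⟨hpr, ?_⟩
  have h1 : p ^ α ∣ (r - 1) * p ^ (m + 1) :=
    (D.d_pow _).mp (by rw [← hn]; exact pow_orderOf_eq_one _)
  have h2 : ¬ p ^ α ∣ (r - 1) * p ^ m := by
    intro h
    have h3 := (D.d_pow _).mpr h
    have h4 := orderOf_dvd_of_pow_eq_one h3
    rw [hn] at h4
    have h5 := (Nat.pow_dvd_pow_iff_le_right hpp.one_lt).mp h4
    omega
  have hmul : ∀ j : ℕ, padicValNat p ((r - 1) * p ^ j) = padicValNat p (r - 1) + j := by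
    intro j
    rw [padicValNat.mul hr1 (pow_ne_zero _ hpp.ne_zero), padicValNat.prime_pow]
  have hmne : ∀ j : ℕ, (r - 1) * p ^ j ≠ 0 :=
    fun j => mul_ne_zero hr1 (pow_ne_zero _ hpp.ne_zero)
  rw [padicValNat_dvd_iff_le (hmne _), hmul] at h1 h2
  omega

theorem Data.pow_sub_ne [hp : Fact p.Prime] (D : Data p a b α r) (j : ℕ) (hj : j ≠ 0) :
    r ^ j - 1 ≠ 0 := by
  have hr2 := D.hr2
  have h0 : 2 ≤ r ^ j := by
    calc 2 ≤ r := hr2
      _ = r ^ 1 := (pow_one r).symm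
      _ ≤ r ^ j := Nat.pow_le_pow_right (by omega) (by omega)
  omega

theorem Data.key [hp : Fact p.Prime] (D : Data p a b α r) (hodd : p ≠ 2) (hG : IsPGroup p G)
    (n : ℕ) (hn : orderOf (a ^ (r - 1)) = p ^ n) (k j : ℕ) (hk : k ≠ 0) (hj : j ≠ 0) :
    p ^ α ∣ k * (r ^ j - 1) ↔ n ≤ padicValNat p k + padicValNat p j := by
  have hpp := hp.out
  have hne := D.pow_sub_ne j hj
  rcases Nat.eq_zero_or_pos n with hn0 | hnpos
  · rw [hn0]
    rw [hn0, pow_zero, orderOf_eq_one_iff, D.pow_eq_one_iff] at hn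
    have h1 : r - 1 ∣ r ^ j - 1 := by simpa using Nat.sub_dvd_pow_sub_pow r 1 j
    exact iff_of_true (dvd_trans hn (dvd_trans h1 (dvd_mul_left _ _))) (Nat.zero_le _)
  · obtain ⟨m, rfl⟩ : ∃ m, n = m + 1 := ⟨n - 1, by omega⟩
    obtain ⟨hpr, hα⟩ := D.alpha_eq hG m hn
    rw [padicValNat_dvd_iff_le (mul_ne_zero hk hne), padicValNat.mul hk hne, D.val hodd hpr j hj, hα]
    omega

theorem comm_pow_formula {G : Type*} [Group G] (x y : G) (m : ℕ) :
    x * y ^ (m + 1) * x⁻¹ * (y ^ (m + 1))⁻¹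
      = (x * y ^ m * x⁻¹ * (y ^ m)⁻¹) * (y ^ m * (x * y * x⁻¹ * y⁻¹) * (y ^ m)⁻¹) := by
  rw [pow_succ]; group

theorem Data.conj_y (D : Data p a b α r) (j i w t : ℕ) :
    (b ^ j * a ^ i) ^ t * a ^ w * ((b ^ j * a ^ i) ^ t)⁻¹ = a ^ (w * (r ^ j) ^ t) := by
  induction t generalizing w with
  | zero => simp
  | succ t ih =>
    have h1 : (b ^ j * a ^ i) ^ (t + 1) * a ^ w * ((b ^ j * a ^ i) ^ (t + 1))⁻¹
        = (b ^ j * a ^ i) ^ t * ((b ^ j * a ^ i) * a ^ w * (b ^ j * a ^ i)⁻¹)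
          * ((b ^ j * a ^ i) ^ t)⁻¹ := by
      rw [pow_succ]; group
    have h2 : (b ^ j * a ^ i) * a ^ w * (b ^ j * a ^ i)⁻¹ = a ^ (w * r ^ j) := by
      have hc : a ^ i * a ^ w * (a ^ i)⁻¹ = a ^ w := by
        rw [← pow_add, add_comm, pow_add]; group
      calc (b ^ j * a ^ i) * a ^ w * (b ^ j * a ^ i)⁻¹
          = b ^ j * (a ^ i * a ^ w * (a ^ i)⁻¹) * (b ^ j)⁻¹ := by group
        _ = b ^ j * a ^ w * (b ^ j)⁻¹ := by rw [hc]
        _ = a ^ (w * r ^ j) := D.conj_pow' j w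
    rw [h1, h2, ih]
    congr 1; ring

theorem Data.comm_pow (D : Data p a b α r) (x : G) (j i w m : ℕ)
    (hw : x * (b ^ j * a ^ i) * x⁻¹ * (b ^ j * a ^ i)⁻¹ = a ^ w) :
    x * (b ^ j * a ^ i) ^ m * x⁻¹ * ((b ^ j * a ^ i) ^ m)⁻¹
      = a ^ (w * ∑ t ∈ Finset.range m, (r ^ j) ^ t) := by
  induction m with
  | zero => simp
  | succ m ih =>
    rw [comm_pow_formula, ih, hw, D.conj_y, ← pow_add, Finset.sum_range_succ, mul_add]

/-- the geometric sum `∑_{t < p^s} (r^j)^t` is divisible by `p^s`. -/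
theorem Data.geom_dvd [hp : Fact p.Prime] (D : Data p a b α r) (hodd : p ≠ 2) (hpr : p ∣ r - 1)
    (j s : ℕ) : p ^ s ∣ ∑ t ∈ Finset.range (p ^ s), (r ^ j) ^ t := by
  have hpp := hp.out
  rcases Nat.eq_zero_or_pos j with hj0 | hjpos
  · rw [hj0]; simp
  · have hj : j ≠ 0 := by omega
    have hgeom := geom_sum_mul_of_one_le (D.one_le_pow j) (p ^ s)
    have hne1 := D.pow_sub_ne j hj
    have hjs : j * p ^ s ≠ 0 := mul_ne_zero hj (pow_ne_zero _ hpp.ne_zero)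
    have hne2 := D.pow_sub_ne (j * p ^ s) hjs
    rw [← pow_mul] at hgeom
    have hS : ∑ t ∈ Finset.range (p ^ s), (r ^ j) ^ t ≠ 0 := by
      intro h0
      rw [h0, zero_mul] at hgeom
      exact hne2 hgeom.symm
    have hv := congrArg (padicValNat p) hgeom
    rw [padicValNat.mul hS hne1, D.val hodd hpr j hj, D.val hodd hpr (j * p ^ s) hjs,
      padicValNat.mul hj (pow_ne_zero _ hpp.ne_zero), padicValNat.prime_pow] at hv
    have hvs : padicValNat p (∑ t ∈ Finset.range (p ^ s), (r ^ j) ^ t) = s := by omega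
    have h1 : p ^ padicValNat p (∑ t ∈ Finset.range (p ^ s), (r ^ j) ^ t)
        ∣ ∑ t ∈ Finset.range (p ^ s), (r ^ j) ^ t := pow_padicValNat_dvd
    rwa [hvs] at h1

end key

section sub
variable {p : ℕ} {G : Type*} [Group G] {a b : G} {α r : ℕ}

theorem cyc_sub {H : Type*} [Group H] [Finite H] (c : H) (K : Subgroup H) (hK : K ≤ zpowers c) :
    ∃ k : ℕ, 0 < k ∧ k ∣ orderOf c ∧ K = zpowers (c ^ k) ∧ ∀ m : ℕ, c ^ m ∈ K → k ∣ m := by
  classical
  have hex : ∃ k : ℕ, 0 < k ∧ c ^ k ∈ K :=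
    ⟨orderOf c, orderOf_pos c, by rw [pow_orderOf_eq_one]; exact one_mem _⟩
  have hmin : ∀ m : ℕ, c ^ m ∈ K → Nat.find hex ∣ m := by
    intro m hm
    have hk := Nat.find_spec hex
    by_contra hnd
    have hlt : m % Nat.find hex < Nat.find hex := Nat.mod_lt _ hk.1
    have hpos : 0 < m % Nat.find hex :=
      Nat.pos_of_ne_zero (fun h => hnd (Nat.dvd_of_mod_eq_zero h))
    have hmem : c ^ (m % Nat.find hex) ∈ K := by
      have e : c ^ (m % Nat.find hex) = c ^ m * ((c ^ Nat.find hex) ^ (m / Nat.find hex))⁻¹ := by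
        rw [eq_mul_inv_iff_mul_eq, ← pow_mul, ← pow_add, Nat.mod_add_div]
      rw [e]
      exact K.mul_mem hm (K.inv_mem (K.pow_mem hk.2 _))
    exact Nat.find_min hex hlt ⟨hpos, hmem⟩
  refine ⟨Nat.find hex, (Nat.find_spec hex).1,
    hmin _ (by rw [pow_orderOf_eq_one]; exact one_mem _), ?_, hmin⟩
  apply le_antisymm
  · intro y hy
    obtain ⟨t, ht⟩ := mem_zpowers_iff.mp (hK hy)
    obtain ⟨m, hm⟩ := nat_pow_of_zpow c t
    rw [ht] at hm
    obtain ⟨q, hq⟩ := hmin m (by rw [hm]; exact hy)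
    rw [← hm, hq, pow_mul]
    exact pow_mem (mem_zpowers _) q
  · rw [zpowers_le]; exact (Nat.find_spec hex).2

theorem Data.genQ (D : Data p a b α r) [hN : (zpowers a).Normal] :
    ∀ z : G ⧸ zpowers a, z ∈ zpowers (QuotientGroup.mk b : G ⧸ zpowers a) := by
  intro z
  obtain ⟨g, rfl⟩ := QuotientGroup.mk_surjective z
  obtain ⟨j, i, rfl⟩ := D.hgen g
  have h1 : (QuotientGroup.mk (a ^ i) : G ⧸ zpowers a) = 1 := by
    rw [QuotientGroup.eq_one_iff]; exact pow_mem (mem_zpowers a) i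
  rw [QuotientGroup.mk_mul, h1, mul_one, QuotientGroup.mk_pow]
  exact pow_mem (mem_zpowers _) j

theorem Data.beta [Finite G] [hp : Fact p.Prime] (D : Data p a b α r) (hG : IsPGroup p G) :
    ∃ β : ℕ, Nat.card G = p ^ (α + β) ∧ ∀ m : ℕ, (b ^ m ∈ zpowers a ↔ p ^ β ∣ m) := by
  haveI := D.normal
  have hord := orderOf_eq_card_of_forall_mem_zpowers D.genQ
  have hcard := Cfsg.Agent.S0003.card_quot (zpowers a)
  rw [Nat.card_zpowers, D.ha] at hcard
  obtain ⟨m, hm⟩ := IsPGroup.iff_card.mp hG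
  have hdvd : Nat.card (G ⧸ zpowers a) ∣ p ^ m := by
    rw [← hm, ← hcard]; exact dvd_mul_left _ _
  obtain ⟨β, _, hβ⟩ := (Nat.dvd_prime_pow hp.out).mp hdvd
  refine ⟨β, by rw [← hcard, hβ, pow_add], ?_⟩
  intro m
  rw [← QuotientGroup.eq_one_iff (N := zpowers a), QuotientGroup.mk_pow,
    ← orderOf_dvd_iff_pow_eq_one, hord, hβ]

theorem Data.sub_struct [Finite G] [hp : Fact p.Prime] (D : Data p a b α r) (β : ℕ)
    (hβ : ∀ m : ℕ, (b ^ m ∈ zpowers a ↔ p ^ β ∣ m)) (L : Subgroup G) :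
    ∃ u w i : ℕ, u ≤ α ∧ w ≤ β ∧ Nat.card L = p ^ ((α - u) + (β - w)) ∧
      (∀ m : ℕ, a ^ m ∈ L ↔ p ^ u ∣ m) ∧ b ^ (p ^ w) * a ^ i ∈ L ∧
      (∀ y ∈ L, ∃ t c : ℕ, y = (b ^ (p ^ w) * a ^ i) ^ t * a ^ (p ^ u * c)) ∧
      (∀ m c : ℕ, b ^ m * a ^ c ∈ L → p ^ w ∣ m) := by
  have hpp := hp.out
  haveI := D.normal
  obtain ⟨k, hk0, hkd, hKeq, hkmin⟩ := cyc_sub a (L ⊓ zpowers a) inf_le_right
  rw [D.ha] at hkd
  obtain ⟨u, hu, rfl⟩ := (Nat.dvd_prime_pow hpp).mp hkd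
  have hamem : ∀ m : ℕ, a ^ m ∈ L ↔ p ^ u ∣ m := by
    intro m
    constructor
    · intro h; exact hkmin m ⟨h, pow_mem (mem_zpowers a) m⟩
    · rintro ⟨c, rfl⟩
      have h0 : a ^ (p ^ u * c) ∈ L ⊓ zpowers a := by
        rw [hKeq, pow_mul]; exact pow_mem (mem_zpowers _) c
      exact h0.1
  obtain ⟨q, hq⟩ : ∃ q : G ⧸ zpowers a, q = QuotientGroup.mk b := ⟨_, rfl⟩
  have hgenQ : ∀ z : G ⧸ zpowers a, z ∈ zpowers q := by rw [hq]; exact D.genQ
  have hordq : orderOf q = p ^ β := by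
    apply Nat.dvd_antisymm
    · rw [orderOf_dvd_iff_pow_eq_one, hq, ← QuotientGroup.mk_pow, QuotientGroup.eq_one_iff, hβ]
    · rw [← hβ, ← QuotientGroup.eq_one_iff (N := zpowers a), QuotientGroup.mk_pow, ← hq]
      exact pow_orderOf_eq_one q
  obtain ⟨k', hk'0, hk'd, hK'eq, hk'min⟩ :=
    cyc_sub q (L.map (QuotientGroup.mk' (zpowers a))) (fun z _ => hgenQ z)
  rw [hordq] at hk'd
  obtain ⟨w, hw, rfl⟩ := (Nat.dvd_prime_pow hpp).mp hk'd
  have hxex : q ^ (p ^ w) ∈ L.map (QuotientGroup.mk' (zpowers a)) := by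
    rw [hK'eq]; exact mem_zpowers _
  obtain ⟨x, hxL, hxq⟩ := hxex
  have hxq' : (QuotientGroup.mk x : G ⧸ zpowers a) = q ^ (p ^ w) := hxq
  have hxa : (b ^ (p ^ w))⁻¹ * x ∈ zpowers a := by
    rw [← QuotientGroup.eq (s := zpowers a), QuotientGroup.mk_pow, ← hq]; exact hxq'.symm
  obtain ⟨t0, ht0⟩ := mem_zpowers_iff.mp hxa
  obtain ⟨i, hi⟩ := nat_pow_of_zpow a t0
  rw [ht0] at hi
  have hx : x = b ^ (p ^ w) * a ^ i := by rw [hi]; group
  refine ⟨u, w, i, hu, hw, ?_, hamem, hx ▸ hxL, ?_, ?_⟩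
  · have h1 := Cfsg.Agent.S0003.card_map_mk L (zpowers a)
    rw [hKeq, hK'eq, Nat.card_zpowers, Nat.card_zpowers,
      orderOf_pow_of_dvd (pow_ne_zero _ hpp.ne_zero) (by rw [hordq]; exact pow_dvd_pow p hw),
      orderOf_pow_of_dvd (pow_ne_zero _ hpp.ne_zero) (by rw [D.ha]; exact pow_dvd_pow p hu),
      hordq, D.ha, Nat.pow_div hw hpp.pos, Nat.pow_div hu hpp.pos] at h1
    rw [← h1, ← pow_add, add_comm]
  · intro y hy
    have hy' : QuotientGroup.mk' (zpowers a) y ∈ L.map (QuotientGroup.mk' (zpowers a)) :=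
      ⟨y, hy, rfl⟩
    rw [hK'eq] at hy'
    obtain ⟨t1, ht1⟩ := mem_zpowers_iff.mp hy'
    obtain ⟨t, ht⟩ := nat_pow_of_zpow (q ^ (p ^ w)) t1
    rw [ht1] at ht
    have ht' : (q ^ (p ^ w)) ^ t = (QuotientGroup.mk y : G ⧸ zpowers a) := ht
    have h2 : (x ^ t)⁻¹ * y ∈ zpowers a := by
      rw [← QuotientGroup.eq (s := zpowers a), QuotientGroup.mk_pow, hxq']
      exact ht'
    have h3 : (x ^ t)⁻¹ * y ∈ L ⊓ zpowers a :=
      ⟨L.mul_mem (L.inv_mem (L.pow_mem hxL t)) hy, h2⟩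
    rw [hKeq] at h3
    obtain ⟨t2, ht2⟩ := mem_zpowers_iff.mp h3
    obtain ⟨c, hc⟩ := nat_pow_of_zpow (a ^ (p ^ u)) t2
    rw [ht2, ← pow_mul] at hc
    refine ⟨t, c, ?_⟩
    rw [← hx, hc]; group
  · intro m c hmc
    apply hk'min
    refine ⟨b ^ m * a ^ c, hmc, ?_⟩
    show (QuotientGroup.mk (b ^ m * a ^ c) : G ⧸ zpowers a) = q ^ m
    have h1 : (QuotientGroup.mk (a ^ c) : G ⧸ zpowers a) = 1 := by
      rw [QuotientGroup.eq_one_iff]; exact pow_mem (mem_zpowers a) c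
    rw [QuotientGroup.mk_mul, QuotientGroup.mk_pow, h1, mul_one, hq]

theorem comm_sup (L : Subgroup G) (hL : ∀ y ∈ L, ∀ y' ∈ L, y * y' = y' * y) (z : G)
    (hz : ∀ y ∈ L, y * z = z * y) :
    ∀ v ∈ L ⊔ zpowers z, ∀ v' ∈ L ⊔ zpowers z, v * v' = v' * v := by
  have hM : L ⊔ zpowers z ≤ centralizer ((L : Set G) ∪ {z}) := by
    apply sup_le
    · intro y hy
      rw [mem_centralizer_iff]
      rintro h (hh | hh)
      · exact hL h hh y hy
      · rw [Set.mem_singleton_iff.mp hh]; exact (hz y hy).symm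
    · rw [zpowers_le, mem_centralizer_iff]
      rintro h (hh | hh)
      · exact hz h hh
      · rw [Set.mem_singleton_iff.mp hh]
  intro v hv v' hv'
  have hv'M := mem_centralizer_iff.mp (hM hv')
  have hle : L ⊔ zpowers z ≤ centralizer ({v'} : Set G) := by
    apply sup_le
    · intro y hy
      rw [mem_centralizer_singleton_iff]
      exact (hv'M y (Or.inl hy))
    · rw [zpowers_le, mem_centralizer_singleton_iff]
      exact (hv'M z (Or.inr rfl))
  exact mem_centralizer_singleton_iff.mp (hle hv)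

end sub

end Cfsg.Agent.Lib.Helper7.Meta
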